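import Cfsg.Agent.H90.Mult24
import Cfsg.Agent.H90.OutM12
import Cfsg.Agent.H90.OutMathieu

/-!
# The Schur multipliers of `M23` and `M11` are trivial; the two classes of involutions of `M24`
(owner: helper90)
-/

set_option autoImplicit false

namespace Cfsg.Agent.H90.Tab

open Cfsg Cfsg.Agent.Golay Cfsg.Agent.Golay.Orb Cfsg.Agent.H90.Stem Cfsg.Agent.Schur
open scoped Pointwise commutatorElement

/-! ### S5394 -/

theorem fixS_eq_filter (g : Equiv.Perm GolayPt) : (Finset.univ.filter fun p => g p = p) = fixS g := rfl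

theorem sq_of_order {g : Equiv.Perm GolayPt} (h : orderOf g = 2) : g * g = 1 := by
  have := pow_orderOf_eq_one g
  rwa [h, pow_two] at this

theorem ne_one_of_order {g : Equiv.Perm GolayPt} (h : orderOf g = 2) : g ≠ 1 := by
  rintro rfl
  rw [orderOf_one] at h
  exact absurd h (by decide)

theorem inv_dichotomy {g : Equiv.Perm GolayPt} (hg : g ∈ M24) (h2 : orderOf g = 2) :
    (Finset.univ.filter fun p => g p = p) ∈ octads ∨ ∀ p, g p ≠ p := by
  by_cases h : ∃ p, g p = p
  · obtain ⟨p, hp⟩ := h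
    exact Or.inl (inv_fix_octad hg (sq_of_order h2) (ne_one_of_order h2) hp)
  · right
    intro p hp
    exact h ⟨p, hp⟩

theorem exists_inv8 : ∃ g ∈ M24, orderOf g = 2 ∧ (Finset.univ.filter fun p => g p = p) ∈ octads := by
  obtain ⟨σ, hσ, hT⟩ := exists_mem_M24 tab8_valid
  have h1 : orderOf σ = 2 := by
    apply order_two_of
    · apply isTable_unique (isTable_pmul hT hT)
      have : pmul tab8 tab8 = idTab := by decide +kernel
      rw [this]; exact isTable_one
    · rw [fixCount_spec hT, fixCount_tab8]; decide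
  refine ⟨σ, hσ, h1, ?_⟩
  have h2 := fixS_tab8 hT
  rw [fixS_eq_filter, h2]
  exact octad_tab8

theorem exists_inv0 : ∃ g ∈ M24, orderOf g = 2 ∧ ∀ p, g p ≠ p := by
  obtain ⟨σ, hσ, hT⟩ := exists_mem_M24 tab0_valid
  have h0 := fixCount_spec hT
  rw [fixCount_tab0] at h0
  have h1 : orderOf σ = 2 := by
    apply order_two_of
    · apply isTable_unique (isTable_pmul hT hT)
      have : pmul tab0 tab0 = idTab := by decide +kernel
      rw [this]; exact isTable_one
    · rw [h0]; decide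
  refine ⟨σ, hσ, h1, ?_⟩
  intro p hp
  rw [Finset.card_eq_zero] at h0
  have : p ∈ Finset.univ.filter fun p => σ p = p := by simp [hp]
  rw [h0] at this
  exact absurd this (Finset.notMem_empty _)

theorem inv_conj_of_iff {g h : Equiv.Perm GolayPt} (hg : g ∈ M24) (hh : h ∈ M24) (hg2 : orderOf g = 2)
    (hh2 : orderOf h = 2) (hiff : (∀ p, g p ≠ p) ↔ (∀ p, h p ≠ p)) : ∃ k ∈ M24, k * g * k⁻¹ = h := by
  have key : ∀ s : Equiv.Perm GolayPt, ∀ hs : s ∈ M24, orderOf s = 2 → (∀ p, s p ≠ p) → P0 ⟨s, hs⟩ := by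
    intro s hs hs2 hp
    refine ⟨hs2, ?_⟩
    rw [Finset.card_eq_zero, Finset.filter_eq_empty_iff]
    intro p _
    exact hp p
  have key' : ∀ s : Equiv.Perm GolayPt, ∀ hs : s ∈ M24, orderOf s = 2 → ¬ (∀ p, s p ≠ p) → P8 ⟨s, hs⟩ := by
    intro s hs hs2 hp
    refine ⟨hs2, ?_⟩
    rcases inv_dichotomy hs hs2 with h | h
    · exact card_octad h
    · exact absurd h hp
  by_cases h1 : ∀ p, g p ≠ p
  · obtain ⟨k, hk⟩ := p0_conj ⟨g, hg⟩ ⟨h, hh⟩ (key g hg hg2 h1) (key h hh hh2 (hiff.1 h1))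
    exact ⟨k, k.2, congrArg Subtype.val hk⟩
  · obtain ⟨k, hk⟩ := p8_conj ⟨g, hg⟩ ⟨h, hh⟩ (key' g hg hg2 h1) (key' h hh hh2 (fun h2 => h1 (hiff.2 h2)))
    exact ⟨k, k.2, congrArg Subtype.val hk⟩


/-! ### M23 -/

theorem inSub23 {n : ℕ} (h : validM24 n = true) (h1 : Nat.beq (papp n 23) 23 = true) : InSub Spor.M23 n := by
  obtain ⟨σ, hσ, hT⟩ := exists_mem_M24 h
  refine ⟨σ, ⟨hσ, ?_⟩, hT⟩
  change σ none = none
  apply idx_injective
  rw [hT none]
  exact Nat.eq_of_beq_eq_true h1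

theorem cent8_check : cent8.all (fun q => validM24 q.2 && Nat.beq (pmul q.2 tab8) (pmul tab8 q.2) &&
    Nat.beq (papp q.2 q.1) 3) = true := by decide +kernel

theorem cent8_cover : ∀ i < 24, papp tab8 i = i → ∃ q ∈ cent8, q.1 = i := by decide +kernel

theorem cent8_spec {t : Equiv.Perm GolayPt} (ht : IsTable tab8 t) {p : GolayPt} (hp : t p = p) :
    ∃ c ∈ M24, c * t = t * c ∧ idx (c p) = 3 := by
  have h1 : papp tab8 (idx p) = idx p := by rw [← ht p, hp]
  obtain ⟨q, hq, hqi⟩ := cent8_cover (idx p) (idx_lt p) h1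
  have h2 := List.all_eq_true.1 cent8_check q hq
  rw [Bool.and_eq_true, Bool.and_eq_true] at h2
  obtain ⟨⟨h3, h4⟩, h5⟩ := h2
  obtain ⟨c, hc, hT⟩ := exists_mem_M24 h3
  refine ⟨c, hc, ?_, ?_⟩
  · have h6 := isTable_pmul hT ht
    rw [Nat.eq_of_beq_eq_true h4] at h6
    exact isTable_unique h6 (isTable_pmul ht hT)
  · rw [hT p, ← hqi]
    exact Nat.eq_of_beq_eq_true h5

/-- The involutions of `M23` are conjugate in `M23`. -/
theorem inv23_conj (a b : Spor.M23) (ha : a * a = 1 ∧ a ≠ 1) (hb : b * b = 1 ∧ b ≠ 1) :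
    ∃ g : Spor.M23, g * a * g⁻¹ = b := by
  have key : ∀ s : Spor.M23, s * s = 1 ∧ s ≠ 1 → ∃ g ∈ M24, IsTable tab8 (g * s * g⁻¹) ∧ idx (g none) = 3 := by
    rintro ⟨s, hs, hs0⟩ ⟨h1, h2⟩
    have h1' : s * s = 1 := congrArg Subtype.val h1
    have h2' : s ≠ 1 := fun h => h2 (Subtype.ext h)
    have hfix : s none = none := hs0
    have ho : orderOf s = 2 := orderOf_eq_prime (by rw [pow_two, h1']) h2'
    obtain ⟨g, hg, hT⟩ := inv_fix8 hs ho (by
      intro h
      have : (none : GolayPt) ∈ Finset.univ.filter fun p => s p = p := by simp [hfix]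
      rw [Finset.card_eq_zero] at h
      rw [h] at this
      exact absurd this (Finset.notMem_empty _))
    have h3 : (g * s * g⁻¹) (g none) = g none := by
      change g (s (g⁻¹ (g none))) = g none
      rw [show g⁻¹ (g none) = none from g.symm_apply_apply none, hfix]
    obtain ⟨c, hc, hcc, hc3⟩ := cent8_spec hT h3
    refine ⟨c * g, M24.mul_mem hc hg, ?_, hc3⟩
    have h4 : c * g * s * (c * g)⁻¹ = g * s * g⁻¹ := by
      calc c * g * s * (c * g)⁻¹ = (c * (g * s * g⁻¹)) * c⁻¹ := by group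
        _ = g * s * g⁻¹ := by rw [hcc]; group
    exact h4 ▸ hT
  obtain ⟨g, hg, hg1, hg2⟩ := key a ha
  obtain ⟨k, hk, hk1, hk2⟩ := key b hb
  have h5 : g none = k none := idx_injective (hg2.trans hk2.symm)
  have h6 : g * a * g⁻¹ = k * b * k⁻¹ := isTable_unique hg1 hk1
  refine ⟨⟨k⁻¹ * g, M24.mul_mem (M24.inv_mem hk) hg, ?_⟩, ?_⟩
  · change k⁻¹ (g none) = none
    rw [h5]
    exact k.symm_apply_apply none
  · apply Subtype.ext
    change k⁻¹ * g * a * (k⁻¹ * g)⁻¹ = b
    calc k⁻¹ * g * a * (k⁻¹ * g)⁻¹ = k⁻¹ * (g * a * g⁻¹) * k := by group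
      _ = b := by rw [h6]; group

theorem p23_of_tab {n : ℕ} {g : Spor.M23} (hg : IsTable n (g : Equiv.Perm GolayPt))
    (h : (Nat.beq (pmul n n) idTab && !(Nat.beq (papp n 2) 2)) = true) : g * g = 1 ∧ g ≠ 1 := by
  rw [Bool.and_eq_true, Bool.not_eq_true'] at h
  refine ⟨eq_of_tab (mul_tab hg hg) one_tab h.1, ?_⟩
  rintro rfl
  have h1 := hg (pt 2)
  have h2 : (((1 : Spor.M23) : Equiv.Perm GolayPt)) (pt 2) = pt 2 := rfl
  rw [h2, idx_pt (by norm_num)] at h1
  rw [← h1, Nat.beq_refl] at h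
  exact absurd h.2 (by decide)

theorem inv23 {Γ : Type} [Group Γ] {σ : Γ →* Spor.M23} (hσ : IsStemExtension σ) (h2 : Nat.card σ.ker = 2) :
    ∀ t : Γ, σ t * σ t = 1 → t * t = 1 := by
  intro t ht
  by_cases h1 : σ t = 1
  · exact ker_sq h2 h1
  have ua := el_tab (inSub23 (n := uA) (by decide +kernel) (by decide +kernel))
  have va := el_tab (inSub23 (n := vA) (by decide +kernel) (by decide +kernel))
  have wa := el_tab (inSub23 (n := wA) (by decide +kernel) (by decide +kernel))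
  exact inv_lift hσ h2 inv23_conj (fun a ha => ha.1) (el Spor.M23 uA) (el Spor.M23 vA) (el Spor.M23 wA)
      (p23_of_tab ua (by decide +kernel)) (p23_of_tab va (by decide +kernel)) (p23_of_tab wa (by decide +kernel))
      (p23_of_tab (mul_tab ua va) (by decide +kernel)) (p23_of_tab (mul_tab ua wa) (by decide +kernel))
      (p23_of_tab (mul_tab va wa) (by decide +kernel)) (p23_of_tab (mul_tab (mul_tab ua va) wa) (by decide +kernel))
      ⟨ht, h1⟩

def N23 : Subgroup Spor.M23 := NN Spor.M23 (v23.map Prod.fst)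

theorem n23_inSub : ∀ q ∈ v23, InSub Spor.M23 q.1 := by
  have h : v23.all (fun q => validM24 q.1 && Nat.beq (papp q.1 23) 23) = true := by decide +kernel
  intro q hq
  have h1 := List.all_eq_true.1 h q hq
  rw [Bool.and_eq_true] at h1
  exact inSub23 h1.1 h1.2

theorem n23_inSub' : ∀ n ∈ v23.map Prod.fst, InSub Spor.M23 n := by
  intro n hn
  obtain ⟨q, hq, rfl⟩ := List.mem_map.1 hn
  exact n23_inSub q hq

theorem card_N23 : Nat.card N23 = 16 := card_NN n23_inSub (by decide +kernel)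

theorem tau23_tab : IsTable tau23 (el Spor.M23 tau23 : Equiv.Perm GolayPt) :=
  el_tab (inSub23 (by decide +kernel) (by decide +kernel))
theorem a23_tab : IsTable a23 (el Spor.M23 a23 : Equiv.Perm GolayPt) :=
  el_tab (inSub23 (by decide +kernel) (by decide +kernel))
theorem b23_tab : IsTable b23 (el Spor.M23 b23 : Equiv.Perm GolayPt) :=
  el_tab (inSub23 (by decide +kernel) (by decide +kernel))
theorem ab23_tab : IsTable ab23 (el Spor.M23 ab23 : Equiv.Perm GolayPt) :=
  el_tab (inSub23 (by decide +kernel) (by decide +kernel))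

theorem ab23_eq : el Spor.M23 b23 * el Spor.M23 a23 * (el Spor.M23 b23)⁻¹ = el Spor.M23 ab23 :=
  conj_eq b23_tab a23_tab ab23_tab (by decide +kernel)

theorem tau23_cube : el Spor.M23 tau23 * el Spor.M23 tau23 * el Spor.M23 tau23 = 1 :=
  eq_of_tab (mul_tab (mul_tab tau23_tab tau23_tab) tau23_tab) one_tab (by decide +kernel)

theorem N23_comm : commL (v23.map Prod.fst) = true := by decide +kernel

theorem tau23_N : ∀ n ∈ N23, el Spor.M23 tau23 * n * (el Spor.M23 tau23)⁻¹ ∈ N23 :=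
  NN_conj n23_inSub' tau23_tab (ks := tau23k) (by decide +kernel)

noncomputable def data23 : TwoData Spor.M23 (Finset GolayPt) where
  N := N23
  τ := el Spor.M23 tau23
  a := el Spor.M23 a23
  b := el Spor.M23 b23
  s1 := ofMask 1
  s2 := ofMask 2
  s3 := ofMask 8193
  hN2 := NN_sq N23_comm (by decide +kernel)
  τ3 := tau23_cube
  τN := tau23_N
  fpf := NN_fpf N23_comm tau23_tab tau23_cube (by decide +kernel) tau23_N
  aN := NN_conj n23_inSub' a23_tab (ks := a23k) (by decide +kernel)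
  bN := NN_conj n23_inSub' b23_tab (ks := b23k) (by decide +kernel)
  aτ := Or.inr (conj_inv_eq a23_tab tau23_tab (by decide +kernel))
  bτ := Or.inl (conj_eq b23_tab tau23_tab tau23_tab (by decide +kernel))
  aa := eq_of_tab (mul_tab a23_tab a23_tab) one_tab (by decide +kernel)
  bb := eq_of_tab (mul_tab b23_tab b23_tab) one_tab (by decide +kernel)
  ab := by
    rw [ab23_eq]
    exact eq_of_tab (mul_tab (mul_tab a23_tab ab23_tab) (mul_tab a23_tab ab23_tab)) one_tab (by decide +kernel)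
  Ns1 := NN_fix (by norm_num) (by decide +kernel)
  as1 := smul_mask_ne a23_tab (by norm_num) (by decide +kernel)
  Ns2 := NN_fix (by norm_num) (by decide +kernel)
  as2 := smul_mask_eq a23_tab (by norm_num) (by decide +kernel)
  bs2 := by
    rw [ab23_eq]
    exact smul_mask_ne ab23_tab (by norm_num) (by decide +kernel)
  Ns3 := NN_fix (by norm_num) (by decide +kernel)
  as3 := smul_mask_eq a23_tab (by norm_num) (by decide +kernel)
  as3' := by
    rw [ab23_eq]
    exact smul_mask_eq ab23_tab (by norm_num) (by decide +kernel)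
  bs3 := smul_mask_ne b23_tab (by norm_num) (by decide +kernel)

theorem m23_two {Γ : Type} [Group Γ] [Finite Γ] {σ : Γ →* Spor.M23} (hσ : IsStemExtension σ)
    (h2 : Nat.card σ.ker = 2) : False := by
  refine data23.false hσ h2 (inv23 hσ h2) (k := 7) (m := 79695) ?_ (by norm_num) ?_
  · rw [card_M23']; norm_num
  · have : Nat.card data23.N = 16 := card_N23
    rw [this]; norm_num

/-- The 3-part for Sylow 3-subgroups of order 9. -/
theorem three_9 {H : Subgroup (Equiv.Perm GolayPt)} [Finite H] {e f h s₁ s₂ : ℕ} (he : InSub H e) (hf : InSub H f)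
    (hh : InSub H h) (he3 : Nat.beq (pmul (pmul e e) e) idTab = true)
    (hf3 : Nat.beq (pmul (pmul f f) f) idTab = true) (hc : Nat.beq (pmul f e) (pmul e f) = true)
    (h1 : s₁ < 2 ^ 24) (h2 : s₂ < 2 ^ 24) (he1 : Nat.beq (pmask e s₁) s₁ = false)
    (he2 : Nat.beq (pmask e s₂) s₂ = true) (hf2 : Nat.beq (pmask f s₂) s₂ = false)
    (hs : Nat.beq (pmul h e) (pmul f h) = true) (hs' : Nat.beq (pmul h f) (pmul e h) = true)
    {m : ℕ} (hH : Nat.card H = 3 ^ 2 * m) (hm : ¬ 3 ∣ m)
    {Γ : Type} [Group Γ] [Finite Γ] {σ : Γ →* H} (hσ : IsStemExtension σ) (h3 : Nat.card σ.ker = 3) : False := by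
  have te := el_tab he
  have tf := el_tab hf
  have th := el_tab hh
  have hcard := card_pair te tf he3 hf3 hc h1 h2 he1 he2 hf2
  refine false_of_nine hσ h3 (eq_of_tab (mul_tab tf te) (mul_tab te tf) hc).symm
    (conj_eq th te tf hs) (conj_eq th tf te hs') hH hm ?_
  rw [hcard]; norm_num

theorem final_2037 : HasCyclicSchurMultiplier Spor.M23 1 := by
  apply mult_one_of
  · intro p hp h
    rw [card_M23'] at h
    have h1 : p ∣ 2 ^ 7 * 3 ^ 2 * 5 * 7 * 11 * 23 := by
      have : (10200960 : ℕ) = 2 ^ 7 * 3 ^ 2 * 5 * 7 * 11 * 23 := by norm_num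
      rw [← this]
      exact (dvd_pow_self p two_ne_zero).trans h
    rcases hp.dvd_mul.1 h1 with h1 | h1
    · rcases hp.dvd_mul.1 h1 with h1 | h1
      · rcases hp.dvd_mul.1 h1 with h1 | h1
        · rcases hp.dvd_mul.1 h1 with h1 | h1
          · rcases hp.dvd_mul.1 h1 with h1 | h1
            · exact Or.inl ((Nat.prime_dvd_prime_iff_eq hp Nat.prime_two).1 (hp.dvd_of_dvd_pow h1))
            · exact Or.inr ((Nat.prime_dvd_prime_iff_eq hp Nat.prime_three).1 (hp.dvd_of_dvd_pow h1))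
          · have := (Nat.prime_dvd_prime_iff_eq hp (by norm_num)).1 h1
            subst this
            exact absurd h (by norm_num)
        · have := (Nat.prime_dvd_prime_iff_eq hp (by norm_num)).1 h1
          subst this
          exact absurd h (by norm_num)
      · have := (Nat.prime_dvd_prime_iff_eq hp (by norm_num)).1 h1
        subst this
        exact absurd h (by norm_num)
    · have := (Nat.prime_dvd_prime_iff_eq hp (by norm_num)).1 h1
      subst this
      exact absurd h (by norm_num)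
  · intro Γ _ _ σ hσ hc
    exact m23_two hσ hc
  · intro Γ _ _ σ hσ hc
    exact three_9 (e := e23) (f := f23) (h := h23) (s₁ := 1) (s₂ := 2)
      (inSub23 (by decide +kernel) (by decide +kernel)) (inSub23 (by decide +kernel) (by decide +kernel))
      (inSub23 (by decide +kernel) (by decide +kernel)) (by decide +kernel) (by decide +kernel) (by decide +kernel)
      (by norm_num) (by norm_num) (by decide +kernel) (by decide +kernel) (by decide +kernel) (by decide +kernel)
      (by decide +kernel) (m := 1133440) (by rw [card_M23']; norm_num) (by norm_num) hσ hc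

/-! ### M11 -/

theorem inSub12 {n : ℕ} (h : validM24 n = true) (h1 : Nat.beq (pmask n 340831) 340831 = true) :
    InSub Spor.M12 n := mem_M12_tab h h1

theorem inSub11 {n : ℕ} (h : validM24 n = true) (h1 : Nat.beq (pmask n 340831) 340831 = true)
    (h2 : Nat.beq (papp n 0) 0 = true) : InSub Spor.M11 n := by
  obtain ⟨σ, hσ, hT⟩ := inSub12 h h1
  refine ⟨σ, ⟨hσ, ?_⟩, hT⟩
  change σ (some 0) = some 0
  apply idx_injective
  rw [hT (some 0)]
  exact Nat.eq_of_beq_eq_true h2

/-- Commutators of a generated subgroup. -/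
theorem comm_closure {Γ : Type*} [Group Γ] [Finite Γ] {C : Subgroup Γ} {S : Set Γ}
    (hn : ∀ s ∈ S, ∀ c ∈ C, s * c * s⁻¹ ∈ C) (h : ∀ a ∈ S, ∀ b ∈ S, ⁅a, b⁆ ∈ C) :
    ∀ a ∈ Subgroup.closure S, ∀ b ∈ Subgroup.closure S, ⁅a, b⁆ ∈ C := by
  have hinv : ∀ s : Γ, (∀ c ∈ C, s * c * s⁻¹ ∈ C) → ∀ c ∈ C, s⁻¹ * c * s ∈ C := by
    intro s hs
    have h1 : ∀ n : ℕ, ∀ c ∈ C, s ^ n * c * (s ^ n)⁻¹ ∈ C := by
      intro n
      induction n with
      | zero => intro c hc; simpa using hc
      | succ n ih =>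
        intro c hc
        have e : s ^ (n + 1) * c * (s ^ (n + 1))⁻¹ = s ^ n * (s * c * s⁻¹) * (s ^ n)⁻¹ := by
          rw [pow_succ]; group
        rw [e]; exact ih _ (hs c hc)
    obtain ⟨n, hn⟩ := mem_powers_iff_mem_zpowers.2 (⟨-1, by simp⟩ : s⁻¹ ∈ Subgroup.zpowers s)
    have hn : s ^ n = s⁻¹ := hn
    intro c hc
    have := h1 n c hc
    rwa [hn, inv_inv] at this
  have hcl : ∀ a ∈ Subgroup.closure S, ∀ c ∈ C, a * c * a⁻¹ ∈ C := by
    intro a ha
    refine Subgroup.closure_induction (p := fun a _ => ∀ c ∈ C, a * c * a⁻¹ ∈ C) hn ?_ ?_ ?_ ha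
    · intro c hc; simpa using hc
    · intro x y _ _ hx hy c hc
      have e : x * y * c * (x * y)⁻¹ = x * (y * c * y⁻¹) * x⁻¹ := by group
      rw [e]; exact hx _ (hy c hc)
    · intro x _ hx c hc
      have := hinv x hx c hc
      rwa [inv_inv]
  have step : ∀ (a : Γ) (T : Set Γ), (∀ b ∈ T, ⁅a, b⁆ ∈ C) → (∀ b ∈ Subgroup.closure T, ∀ c ∈ C, b * c * b⁻¹ ∈ C) →
      ∀ b ∈ Subgroup.closure T, ⁅a, b⁆ ∈ C := by
    intro a T hT hTC b hb
    refine Subgroup.closure_induction (p := fun b _ => ⁅a, b⁆ ∈ C) hT ?_ ?_ ?_ hb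
    · simp
    · intro x y hx _ h1 h2
      have e : ⁅a, x * y⁆ = ⁅a, x⁆ * (x * ⁅a, y⁆ * x⁻¹) := by
        rw [commutatorElement_def, commutatorElement_def, commutatorElement_def]; group
      rw [e]
      exact C.mul_mem h1 (hTC x hx _ h2)
    · intro x hx h1
      have e : ⁅a, x⁻¹⁆ = x⁻¹ * ⁅a, x⁆⁻¹ * x⁻¹⁻¹ := by
        rw [commutatorElement_def, commutatorElement_def]; group
      rw [e]
      exact hTC x⁻¹ (Subgroup.inv_mem _ hx) _ (C.inv_mem h1)
  intro a ha b hb
  have h1 : ∀ s ∈ S, ⁅b, s⁆ ∈ C := by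
    intro s hs
    have h2 := step s S (fun t ht => h s hs t ht) hcl b hb
    rw [← commutatorElement_inv]
    exact C.inv_mem h2
  have h3 := step b S h1 hcl a ha
  rw [← commutatorElement_inv]
  exact C.inv_mem h3

theorem sd16_false {Γ G : Type} [Group Γ] [Finite Γ] [Group G] [Finite G] {σ : Γ →* G} (hσ : IsStemExtension σ)
    (h2 : Nat.card σ.ker = 2) {x y : G} (hx8 : x ^ 8 = 1) (hx4 : x ^ 4 ≠ 1) (hyx : y * x * y⁻¹ = x ^ 3)
    (hyy : y * y = x ^ 4) {m : ℕ} (hG : Nat.card G = 2 ^ 4 * m) (hm : ¬ 2 ∣ m) : False := by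
  have hox : orderOf x = 8 := by
    have : orderOf x = 2 ^ (2 + 1) := orderOf_eq_prime_pow hx4 hx8
    rw [this]; norm_num
  have hcard : Nat.card (Subgroup.zpowers x ⊔ Subgroup.zpowers y : Subgroup G) = 16 := by
    have h1 := (adj_card (C := Subgroup.zpowers x) (x := y) Nat.prime_two ?_ ?_ ?_).1
    · rw [h1, Nat.card_zpowers, hox]
    · rintro _ ⟨i, rfl⟩
      change y * x ^ i * y⁻¹ ∈ _
      rw [← conj_zpow, hyx]
      exact Subgroup.zpow_mem _ (Subgroup.pow_mem _ (Subgroup.mem_zpowers x) 3) i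
    · rw [pow_two, hyy]
      exact Subgroup.pow_mem _ (Subgroup.mem_zpowers x) 4
    · rintro ⟨i, hi⟩
      have hi : x ^ i = y := hi
      have h3 : y * x * y⁻¹ = x := by
        rw [← hi]; group
      rw [h3] at hyx
      apply hx4
      have h4 : x * 1 = x * x ^ 2 := by rw [mul_one, ← pow_succ']; exact hyx
      have h5 : x ^ 2 = 1 := (mul_left_cancel h4).symm
      rw [show x ^ 4 = (x ^ 2) ^ 2 from by rw [← pow_mul], h5, one_pow]
  obtain ⟨X, rfl⟩ := hσ.1 x
  obtain ⟨Y, rfl⟩ := hσ.1 y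
  set k := (X ^ 3)⁻¹ * (Y * X * Y⁻¹) with hk
  have hk1 : σ k = 1 := by
    rw [hk, map_mul, map_mul, map_mul, map_inv, map_inv, map_pow, hyx, inv_mul_cancel]
  have hkc := ker_comm hσ hk1
  have hkk := ker_sq h2 hk1
  have e1 : Y * X * Y⁻¹ = X ^ 3 * k := by rw [hk]; group
  set l := (X ^ 4)⁻¹ * (Y * Y) with hl
  have hl1 : σ l = 1 := by
    rw [hl, map_mul, map_mul, map_inv, map_pow, hyy, inv_mul_cancel]
  have hlc := ker_comm hσ hl1
  have e2 : Y * Y = X ^ 4 * l := by rw [hl]; group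
  have hkX : Commute (X ^ 3) k := hkc _
  have e3 : Y * X ^ 4 * Y⁻¹ = X ^ 12 := by
    rw [← conj_pow, e1, hkX.mul_pow, ← pow_mul]
    have : k ^ 4 = 1 := by
      rw [show (4 : ℕ) = 2 * 2 from rfl, pow_mul, pow_two k, hkk, one_pow]
    rw [this, mul_one]
  have hX8 : X ^ 8 = 1 := by
    have h5 : Y * (X ^ 4 * l) * Y⁻¹ = X ^ 4 * l := by rw [← e2]; group
    have h6 : Y * (X ^ 4 * l) * Y⁻¹ = (Y * X ^ 4 * Y⁻¹) * l := by
      calc Y * (X ^ 4 * l) * Y⁻¹ = Y * X ^ 4 * (l * Y⁻¹) := by group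
        _ = Y * X ^ 4 * (Y⁻¹ * l) := by rw [hlc]
        _ = _ := by group
    rw [h6, e3] at h5
    have h7 := mul_right_cancel h5
    rw [show (12 : ℕ) = 8 + 4 from rfl, pow_add] at h7
    exact mul_eq_right.1 h7
  set D := X ^ 2 * k with hD
  have hkX2 : Commute (X ^ 2) k := hkc _
  have hD3 : D ^ 3 = X ^ 6 * k := by
    rw [hD, hkX2.mul_pow, ← pow_mul]
    have : k ^ 3 = k := by rw [pow_succ, pow_two, hkk, one_mul]
    rw [this]
  have hXD : X * D * X⁻¹ = D := by
    rw [hD]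
    calc X * (X ^ 2 * k) * X⁻¹ = X ^ 3 * (k * X⁻¹) := by group
      _ = X ^ 3 * (X⁻¹ * k) := by rw [hkc]
      _ = X ^ 2 * k := by group
  have hYD : Y * D * Y⁻¹ = D ^ 3 := by
    rw [hD3, hD]
    calc Y * (X ^ 2 * k) * Y⁻¹ = Y * X ^ 2 * (k * Y⁻¹) := by group
      _ = Y * X ^ 2 * (Y⁻¹ * k) := by rw [hkc]
      _ = (Y * X ^ 2 * Y⁻¹) * k := by group
      _ = (X ^ 3 * k) ^ 2 * k := by rw [← conj_pow, e1]
      _ = X ^ 6 * k := by
        rw [hkX.mul_pow, ← pow_mul, pow_two k, hkk, mul_one]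
  have hcomm := comm_closure (C := Subgroup.zpowers D) (S := {X, Y} ∪ (σ.ker : Set Γ)) ?_ ?_
  · have : Fact (Nat.Prime 2) := ⟨Nat.prime_two⟩
    refine false_of_comm hσ (p := 2) (by rw [h2]) (Subgroup.closure ({X, Y} ∪ (σ.ker : Set Γ))) ?_
      (Subgroup.zpowers D) hcomm ?_
    · have hker : σ.ker ≤ Subgroup.closure ({X, Y} ∪ (σ.ker : Set Γ)) := fun z hz =>
        Subgroup.subset_closure (Or.inr hz)
      rw [index_of_ker_le hσ.1 hker]
      apply not_dvd_index Nat.prime_two hG hm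
      have h8 : Subgroup.zpowers (σ X) ⊔ Subgroup.zpowers (σ Y) ≤
          (Subgroup.closure ({X, Y} ∪ (σ.ker : Set Γ))).map σ := by
        refine sup_le ?_ ?_
        · rw [Subgroup.zpowers_le]
          exact ⟨X, Subgroup.subset_closure (Or.inl (Set.mem_insert _ _)), rfl⟩
        · rw [Subgroup.zpowers_le]
          exact ⟨Y, Subgroup.subset_closure (Or.inl (Set.mem_insert_of_mem _ rfl)), rfl⟩
      have h9 := Subgroup.card_dvd_of_le h8
      rw [hcard] at h9
      exact h9
    · rintro _ ⟨i, rfl⟩ hi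
      change σ (D ^ i) = 1 at hi
      change D ^ i = 1
      have h10 : σ D = σ X ^ 2 := by rw [hD, map_mul, hk1, mul_one, map_pow]
      have h11 : orderOf (σ D) = 4 := by
        rw [h10, orderOf_pow, hox]; rfl
      have h12 : (4 : ℤ) ∣ i := by
        rw [map_zpow] at hi
        have := orderOf_dvd_iff_zpow_eq_one.2 hi
        rwa [h11] at this
      have h13 : D ^ 4 = 1 := by
        rw [hD, hkX2.mul_pow, ← pow_mul, show 2 * 4 = 8 from rfl, hX8, one_mul, show (4 : ℕ) = 2 * 2 from rfl, pow_mul,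
          pow_two k, hkk, one_pow]
      obtain ⟨j, rfl⟩ := h12
      rw [zpow_mul, show (4 : ℤ) = ((4 : ℕ) : ℤ) from rfl, zpow_natCast, h13, one_zpow]
  · have hpow : ∀ s : Γ, s * D * s⁻¹ ∈ Subgroup.zpowers D → ∀ c ∈ Subgroup.zpowers D, s * c * s⁻¹ ∈ Subgroup.zpowers D := by
      rintro s hs _ ⟨i, rfl⟩
      change s * D ^ i * s⁻¹ ∈ _
      rw [← conj_zpow]
      exact Subgroup.zpow_mem _ hs i
    rintro s ((rfl | rfl) | hs)
    · apply hpow
      rw [hXD]; exact Subgroup.mem_zpowers D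
    · apply hpow
      rw [hYD]; exact Subgroup.pow_mem _ (Subgroup.mem_zpowers D) 3
    · apply hpow
      have := ker_comm hσ hs
      rw [← this, mul_inv_cancel_right]
      exact Subgroup.mem_zpowers D
  · have hc : ∀ a b : Γ, σ b = 1 → ⁅a, b⁆ = 1 := by
      intro a b hb
      rw [commutatorElement_def, ker_comm hσ hb a, mul_inv_cancel_right, mul_inv_cancel]
    have hc' : ∀ a b : Γ, σ a = 1 → ⁅a, b⁆ = 1 := by
      intro a b ha
      rw [← commutatorElement_inv, hc b a ha, inv_one]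
    have hYX : ⁅Y, X⁆ ∈ Subgroup.zpowers D := by
      have : ⁅Y, X⁆ = D := by
        rw [commutatorElement_def, e1, hD]
        calc X ^ 3 * k * X⁻¹ = X ^ 3 * (k * X⁻¹) := by group
          _ = X ^ 3 * (X⁻¹ * k) := by rw [hkc]
          _ = X ^ 2 * k := by group
      rw [this]; exact Subgroup.mem_zpowers D
    rintro a ((rfl | rfl) | ha) b ((rfl | rfl) | hb)
    · rw [commutatorElement_self]; exact Subgroup.one_mem _
    · rw [← commutatorElement_inv]; exact Subgroup.inv_mem _ hYX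
    · rw [hc _ _ hb]; exact Subgroup.one_mem _
    · exact hYX
    · rw [commutatorElement_self]; exact Subgroup.one_mem _
    · rw [hc _ _ hb]; exact Subgroup.one_mem _
    · rw [hc' _ _ ha]; exact Subgroup.one_mem _
    · rw [hc' _ _ ha]; exact Subgroup.one_mem _
    · rw [hc' _ _ ha]; exact Subgroup.one_mem _

theorem card_M11' : Nat.card Spor.M11 = 7920 := by
  rw [← Mst1_eq_M11]
  exact card_Mst1 squareDodecad_mem zero_mem_square

theorem final_2034 : HasCyclicSchurMultiplier Spor.M11 1 := by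
  apply mult_one_of
  · intro p hp h
    rw [card_M11'] at h
    have h1 : p ∣ 2 ^ 4 * 3 ^ 2 * 5 * 11 := by
      have : (7920 : ℕ) = 2 ^ 4 * 3 ^ 2 * 5 * 11 := by norm_num
      rw [← this]
      exact (dvd_pow_self p two_ne_zero).trans h
    rcases hp.dvd_mul.1 h1 with h1 | h1
    · rcases hp.dvd_mul.1 h1 with h1 | h1
      · rcases hp.dvd_mul.1 h1 with h1 | h1
        · exact Or.inl ((Nat.prime_dvd_prime_iff_eq hp Nat.prime_two).1 (hp.dvd_of_dvd_pow h1))
        · exact Or.inr ((Nat.prime_dvd_prime_iff_eq hp Nat.prime_three).1 (hp.dvd_of_dvd_pow h1))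
      · have := (Nat.prime_dvd_prime_iff_eq hp (by norm_num)).1 h1
        subst this
        exact absurd h (by norm_num)
    · have := (Nat.prime_dvd_prime_iff_eq hp (by norm_num)).1 h1
      subst this
      exact absurd h (by norm_num)
  · intro Γ _ _ σ hσ hc
    have tx := el_tab (inSub11 (n := x11) (by decide +kernel) (by decide +kernel) (by decide +kernel))
    have ty := el_tab (inSub11 (n := y11) (by decide +kernel) (by decide +kernel) (by decide +kernel))
    have tx2 := mul_tab tx tx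
    have tx4 := mul_tab tx2 tx2
    have e2 : el Spor.M11 x11 ^ 2 = el Spor.M11 x11 * el Spor.M11 x11 := pow_two _
    have e4 : el Spor.M11 x11 ^ 4 = (el Spor.M11 x11 * el Spor.M11 x11) * (el Spor.M11 x11 * el Spor.M11 x11) := by
      rw [← e2, ← pow_add]
    have e8 : el Spor.M11 x11 ^ 8 = ((el Spor.M11 x11 * el Spor.M11 x11) * (el Spor.M11 x11 * el Spor.M11 x11)) *
        ((el Spor.M11 x11 * el Spor.M11 x11) * (el Spor.M11 x11 * el Spor.M11 x11)) := by
      rw [← e4, ← pow_add]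
    have e3 : el Spor.M11 x11 ^ 3 = el Spor.M11 x11 * (el Spor.M11 x11 * el Spor.M11 x11) := by
      rw [← e2, ← pow_succ']
    refine sd16_false hσ hc (x := el Spor.M11 x11) (y := el Spor.M11 y11) ?_ ?_ ?_ ?_ (m := 495) ?_ (by norm_num)
    · rw [e8]
      exact eq_of_tab (mul_tab tx4 tx4) one_tab (by decide +kernel)
    · rw [e4]
      intro h
      have h1 := isTable_inj (n := pmul (pmul x11 x11) (pmul x11 x11)) (m := idTab)
        (σ := ((1 : Spor.M11) : Equiv.Perm GolayPt)) (h ▸ tx4) one_tab (pmul_lt _ _) (by norm_num)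
      exact absurd h1 (by decide +kernel)
    · rw [e3]
      exact conj_eq ty tx (mul_tab tx tx2) (by decide +kernel)
    · rw [e4]
      exact eq_of_tab (mul_tab ty ty) tx4 (by decide +kernel)
    · rw [card_M11']; norm_num
  · intro Γ _ _ σ hσ hc
    exact three_9 (e := e11) (f := f11) (h := h11) (s₁ := 8) (s₂ := 4120)
      (inSub11 (by decide +kernel) (by decide +kernel) (by decide +kernel))
      (inSub11 (by decide +kernel) (by decide +kernel) (by decide +kernel))
      (inSub11 (by decide +kernel) (by decide +kernel) (by decide +kernel))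
      (by decide +kernel) (by decide +kernel) (by decide +kernel)
      (by norm_num) (by norm_num) (by decide +kernel) (by decide +kernel) (by decide +kernel) (by decide +kernel)
      (by decide +kernel) (m := 880) (by rw [card_M11']; norm_num) (by norm_num) hσ hc

end Cfsg.Agent.H90.Tab
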